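import Mathlib
import Cfsg.Agent.Lib.Helper65.IA.Defs

set_option autoImplicit false

namespace Cfsg.Agent.Lib.Helper65.IA

theorem inv_bot {G : Type} [Group G] (α : MulAut G) : Inv α (⊥ : Subgroup G) := by
  unfold Inv; rw [Subgroup.map_bot]

theorem inv_comap {G : Type} [Group G] [Finite G] {α : MulAut G} (N : Subgroup G) [N.Normal]
    (hN : Inv α N) {Pb : Subgroup (G ⧸ N)} (hPb : Inv (qa α N hN) Pb) :
    Inv α (Pb.comap (QuotientGroup.mk' N)) := by
  apply inv_of_forall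
  intro g hg
  rw [Subgroup.mem_comap] at hg ⊢
  have := hPb.mem hg
  exact this

theorem exists_max_two {G : Type} [Group G] [Finite G] (α : MulAut G) :
    ∃ (P : Subgroup G) (_ : P.Normal) (hP : Inv α P), IsPGroup 2 P ∧ No2 (qa α P hP) := by
  obtain ⟨P, ⟨hPn, hPi, hP2⟩, hmax⟩ := Set.exists_max_image
    {P : Subgroup G | P.Normal ∧ Inv α P ∧ IsPGroup 2 P} (fun P => Nat.card P) (Set.toFinite _)
    ⟨⊥, inferInstance, inv_bot α, IsPGroup.of_bot⟩
  refine ⟨P, hPn, hPi, hP2, ?_⟩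
  intro Pb hPbn hPbi hPb2
  have hY2 : IsPGroup 2 (Pb.comap (QuotientGroup.mk' P)) := by
    apply hPb2.comap_of_ker_isPGroup
    rw [QuotientGroup.ker_mk']
    exact hP2
  have hle : P ≤ Pb.comap (QuotientGroup.mk' P) := by
    intro g hg
    rw [Subgroup.mem_comap]
    have : QuotientGroup.mk' P g = 1 := (QuotientGroup.eq_one_iff g).2 hg
    rw [this]; exact Pb.one_mem
  have hcard := hmax (Pb.comap (QuotientGroup.mk' P)) ⟨hPbn.comap _, inv_comap P hPi hPbi, hY2⟩
  have heq : P = Pb.comap (QuotientGroup.mk' P) := Subgroup.eq_of_le_of_card_ge hle hcard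
  rw [eq_bot_iff]
  intro y hy
  obtain ⟨g, rfl⟩ := QuotientGroup.mk_surjective y
  have hg : g ∈ Pb.comap (QuotientGroup.mk' P) := hy
  rw [← heq] at hg
  rw [Subgroup.mem_bot]
  exact (QuotientGroup.eq_one_iff g).2 hg

end Cfsg.Agent.Lib.Helper65.IA
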