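import Mathlib
import Cfsg.Agent.Lib.Helper65.IA.Defs
import Cfsg.Agent.Lib.Helper65.IA.No2Max

set_option autoImplicit false

namespace Cfsg.Agent.Lib.Helper65.IA

/-- In a finite nilpotent group the `2`-elements form the (normal) Sylow `2`-subgroup. -/
theorem mem_sylow_of_nilpotent {Y : Type} [Group Y] [Finite Y] [Group.IsNilpotent Y]
    (S : Sylow 2 Y) (y : Y) (k : ℕ) (hy : y ^ 2 ^ k = 1) : y ∈ S := by
  have : Fact (Nat.Prime 2) := ⟨Nat.prime_two⟩
  have hz : IsPGroup 2 (Subgroup.zpowers y) := by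
    obtain ⟨j, _, hj⟩ := (Nat.dvd_prime_pow Nat.prime_two).1 (orderOf_dvd_of_pow_eq_one hy)
    exact IsPGroup.of_card (n := j) (by rw [Nat.card_zpowers, hj])
  obtain ⟨S', hS'⟩ := hz.exists_le_sylow
  have hn : (S : Subgroup Y).Normal := inferInstance
  have := Sylow.unique_of_normal S hn
  have heq : S' = S := Subsingleton.elim _ _
  rw [← heq]
  exact hS' (Subgroup.mem_zpowers y)

theorem no2_qa_central {G : Type} [Group G] [Finite G] {α : MulAut G} (h2 : No2 α)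
    (Q : Subgroup G) [Q.Normal] (hQ : Inv α Q) (hQc : Q ≤ Subgroup.center G) :
    No2 (qa α Q hQ) := by
  have hp2 : Fact (Nat.Prime 2) := ⟨Nat.prime_two⟩
  intro Pb hPbn hPbi hPb2
  set Y : Subgroup G := Pb.comap (QuotientGroup.mk' Q) with hY
  have hYn : Y.Normal := hPbn.comap _
  have hYi : Inv α Y := inv_comap Q hQ hPbi
  haveI : Group.IsNilpotent Pb := hPb2.isNilpotent
  haveI hnil : Group.IsNilpotent Y := by
    apply Subgroup.isNilpotent_of_ker_le_center ((QuotientGroup.mk' Q).subgroupComap Pb)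
    intro y hy
    rw [MonoidHom.mem_ker] at hy
    have h1 : (y.1 : G ⧸ Q) = 1 := congrArg Subtype.val hy
    have h3 : y.1 ∈ Q := (QuotientGroup.eq_one_iff _).1 h1
    rw [Subgroup.mem_center_iff]
    intro w
    apply Subtype.ext
    exact Subgroup.mem_center_iff.1 (hQc h3) w.1
  obtain ⟨S⟩ : Nonempty (Sylow 2 Y) := inferInstance
  set T : Subgroup G := (S : Subgroup Y).map Y.subtype with hT
  have hTmem : ∀ g : G, g ∈ T ↔ g ∈ Y ∧ ∃ k : ℕ, g ^ 2 ^ k = 1 := by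
    intro g
    constructor
    · rintro ⟨y, hy, rfl⟩
      refine ⟨y.2, ?_⟩
      obtain ⟨k, hk⟩ := S.2 ⟨y, hy⟩
      refine ⟨k, ?_⟩
      have := congrArg (fun w : (S : Subgroup Y) => (w.1.1 : G)) hk
      simpa using this
    · rintro ⟨hgY, k, hk⟩
      refine ⟨⟨g, hgY⟩, mem_sylow_of_nilpotent S ⟨g, hgY⟩ k (Subtype.ext (by simpa using hk)), rfl⟩
  have hT2 : IsPGroup 2 T := S.2.map _
  have hTn : T.Normal := by
    constructor
    intro n hn g
    obtain ⟨h1, k, hk⟩ := (hTmem n).1 hn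
    refine (hTmem _).2 ⟨hYn.conj_mem n h1 g, k, ?_⟩
    rw [conj_pow, hk]; group
  have hTi : Inv α T := by
    apply inv_of_forall
    intro g hg
    obtain ⟨h1, k, hk⟩ := (hTmem g).1 hg
    exact (hTmem _).2 ⟨hYi.mem h1, k, by rw [← map_pow, hk, map_one]⟩
  have hTbot := h2 T hTn hTi hT2
  rw [eq_bot_iff]
  intro y hy
  obtain ⟨g, rfl⟩ := QuotientGroup.mk_surjective y
  have hgY : g ∈ Y := hy
  obtain ⟨a, m, hm, hgm⟩ := Nat.exists_eq_two_pow_mul_odd (orderOf_pos g).ne'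
  have h3 : g ^ m ∈ T := (hTmem _).2 ⟨Y.pow_mem hgY m, a, by
    rw [← pow_mul, mul_comm, ← hgm, pow_orderOf_eq_one]⟩
  rw [hTbot, Subgroup.mem_bot] at h3
  obtain ⟨k, hk⟩ := hPb2 ⟨(g : G ⧸ Q), hy⟩
  have hk' : (g : G ⧸ Q) ^ 2 ^ k = 1 := by
    have := congrArg Subtype.val hk
    simpa using this
  have hm' : (g : G ⧸ Q) ^ m = 1 := by
    rw [← QuotientGroup.mk_pow, h3, QuotientGroup.mk_one]
  rw [Subgroup.mem_bot]
  have hcop : Nat.Coprime (2 ^ k) m := Nat.Coprime.pow_left k (Nat.coprime_two_left.2 hm)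
  have h4 : orderOf (g : G ⧸ Q) ∣ Nat.gcd (2 ^ k) m :=
    Nat.dvd_gcd (orderOf_dvd_of_pow_eq_one hk') (orderOf_dvd_of_pow_eq_one hm')
  rw [hcop, Nat.dvd_one] at h4
  exact orderOf_eq_one_iff.1 h4

end Cfsg.Agent.Lib.Helper65.IA
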